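import Mathlib.GroupTheory.QuotientGroup.Basic
import Mathlib.Algebra.Group.Subgroup.Pointwise

/-!
The core of a subgroup inside another one, and the two sequences of iterated cores attached to a subgroup
and its conjugate by an involution (owner: helper66).
-/

set_option autoImplicit false

namespace Cfsg.Agent.H66

variable {G : Type*} [Group G]

/-- The core in `M` of a subgroup `Y`. -/
def coreIn (M Y : Subgroup G) : Subgroup G := (Y.subgroupOf M).normalCore.map M.subtype

theorem coreIn_le (M Y : Subgroup G) : coreIn M Y ≤ Y := by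
  rintro _ ⟨x, hx, rfl⟩
  exact (Subgroup.normalCore_le (Y.subgroupOf M)) hx

theorem coreIn_le_left (M Y : Subgroup G) : coreIn M Y ≤ M := by
  rintro _ ⟨x, -, rfl⟩
  exact x.2

theorem le_normalizer_coreIn (M Y : Subgroup G) :
    M ≤ Subgroup.normalizer (coreIn M Y : Set G) := by
  have key : ∀ m ∈ M, ∀ x ∈ coreIn M Y, m * x * m⁻¹ ∈ coreIn M Y := by
    rintro m hm _ ⟨x, hx, rfl⟩
    exact ⟨⟨m, hm⟩ * x * ⟨m, hm⟩⁻¹,
      (Subgroup.normalCore_normal _).conj_mem x hx ⟨m, hm⟩, by simp⟩
  intro m hm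
  rw [Subgroup.mem_normalizer_iff]
  intro x
  refine ⟨key m hm x, fun h => ?_⟩
  have := key m⁻¹ (inv_mem hm) _ h
  simpa [mul_assoc] using this

theorem le_coreIn {M Y X : Subgroup G} (hXM : X ≤ M) (hXY : X ≤ Y)
    (hn : M ≤ Subgroup.normalizer (X : Set G)) : X ≤ coreIn M Y := by
  have hN : (X.subgroupOf M).Normal := ⟨fun x hx m => by
    rw [Subgroup.mem_subgroupOf] at hx ⊢
    simpa using (Subgroup.mem_normalizer_iff.1 (hn m.2) _).1 hx⟩
  intro x hx
  refine ⟨⟨x, hXM hx⟩, ?_, rfl⟩
  have h1 : X.subgroupOf M ≤ (Y.subgroupOf M).normalCore := by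
    rw [Subgroup.normal_le_normalCore]
    exact fun y hy => hXY hy
  exact h1 hx

theorem map_coreIn_le (f : G ≃* G) (M Y : Subgroup G) :
    (coreIn M Y).map f.toMonoidHom ≤ coreIn (M.map f.toMonoidHom) (Y.map f.toMonoidHom) := by
  refine le_coreIn (Subgroup.map_mono (coreIn_le_left M Y)) (Subgroup.map_mono (coreIn_le M Y)) ?_
  exact (Subgroup.map_mono (le_normalizer_coreIn M Y)).trans (Subgroup.le_normalizer_map _)

theorem map_map_conj {g : G} (hg : g * g = 1) (X : Subgroup G) :
    (X.map (MulAut.conj g).toMonoidHom).map (MulAut.conj g).toMonoidHom = X := by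
  rw [Subgroup.map_map]
  convert Subgroup.map_id X
  ext x
  have hg' : g⁻¹ = g := inv_eq_of_mul_eq_one_right hg
  simp [hg', ← mul_assoc, hg, mul_assoc x g g]

theorem coreIn_conj {g : G} (hg : g * g = 1) (M Y : Subgroup G) :
    (coreIn M Y).map (MulAut.conj g).toMonoidHom =
      coreIn (M.map (MulAut.conj g).toMonoidHom) (Y.map (MulAut.conj g).toMonoidHom) := by
  refine le_antisymm (map_coreIn_le _ M Y) ?_
  have h := Subgroup.map_mono (f := (MulAut.conj g).toMonoidHom)
    (map_coreIn_le (MulAut.conj g) (M.map (MulAut.conj g).toMonoidHom) (Y.map (MulAut.conj g).toMonoidHom))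
  rwa [map_map_conj hg, map_map_conj hg, map_map_conj hg] at h

/-- The sequence of iterated cores attached to `M` and its conjugate by `g`. -/
def seqA (M : Subgroup G) (g : G) : ℕ → Subgroup G
  | 0 => M
  | n + 1 => coreIn M (seqA M g n ⊓ (seqA M g n).map (MulAut.conj g).toMonoidHom)

theorem seqA_le (M : Subgroup G) (g : G) (n : ℕ) : seqA M g n ≤ M := by
  cases n with
  | zero => exact le_rfl
  | succ n => exact coreIn_le_left M _

theorem le_normalizer_seqA (M : Subgroup G) (g : G) (n : ℕ) :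
    M ≤ Subgroup.normalizer (seqA M g n : Set G) := by
  cases n with
  | zero => exact Subgroup.le_normalizer
  | succ n => exact le_normalizer_coreIn M _

theorem seqA_succ_le (M : Subgroup G) (g : G) (n : ℕ) :
    seqA M g (n + 1) ≤ seqA M g n ∧
      seqA M g (n + 1) ≤ (seqA M g n).map (MulAut.conj g).toMonoidHom :=
  ⟨(coreIn_le M _).trans inf_le_left, (coreIn_le M _).trans inf_le_right⟩

theorem seqB_succ {M : Subgroup G} {g : G} (hg : g * g = 1) (n : ℕ) :
    (seqA M g (n + 1)).map (MulAut.conj g).toMonoidHom =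
      coreIn (M.map (MulAut.conj g).toMonoidHom)
        (seqA M g n ⊓ (seqA M g n).map (MulAut.conj g).toMonoidHom) := by
  rw [seqA, coreIn_conj hg, Subgroup.map_inf _ _ _ (MulAut.conj g).injective, map_map_conj hg, inf_comm]

end Cfsg.Agent.H66
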