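import Cfsg.Agent.ChevGrp.BN
import Cfsg.Agent.H66.CoreSeq

/-!
Iterated cores of a maximal parabolic subgroup and its conjugate by the representative of the missing
fundamental reflection, in a group with root elements over the field of two elements (owner: helper66).
-/

set_option autoImplicit false

namespace Cfsg.Agent.H66

open Cfsg.Lie Cfsg.Agent.ChevGrp

/-- Positive roots, closed under positive integral combinations. -/
def Conv (D : ChevalleyDatum) (len : ℕ → ℕ) (T : Set ℕ) : Prop :=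
  (∀ r ∈ T, D.IsPosRoot r) ∧ ∀ r ∈ T, ∀ s ∈ T, ∀ u < D.nroots, ∀ a b : ℕ, 0 < a → 0 < b →
    vec D len u = (a : ℤ) • vec D len r + (b : ℤ) • vec D len s → u ∈ T

/-- The positive roots whose coefficient at `d` is at least `k`. -/
def lvlC (D : ChevalleyDatum) (len : ℕ → ℕ) (d : Fin D.rank) (k : ℤ) : Set ℕ :=
  {r | D.IsPosRoot r ∧ k ≤ vec D len r d}

/-- The nodes other than `d`. -/
def Jd {n : ℕ} (d : Fin n) : Set ℕ := {j | j ≠ d.val}

/-- A word avoiding the letter `d`. -/
def OverJ {n : ℕ} (d : Fin n) (w : List (Fin n)) : Prop := ∀ i ∈ w, i ≠ d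

/-- The combinatorial facts about a node used in the computation of the cores. -/
structure CoreCert (D : ChevalleyDatum) (len : ℕ → ℕ) (d : Fin D.rank) : Prop where
  len_d : len (D.simple d) = 1
  one : ∀ r, D.IsPosRoot r → vec D len r d = 1 → ∃ w, OverJ d w ∧ act D w r = D.simple d
  high : ∀ r, D.IsPosRoot r → 2 ≤ vec D len r d → ∃ w, OverJ d w ∧ 0 < D.cartan d (act D w r)
  small : ∀ r, D.IsPosRoot r → r ≠ D.simple d → D.cartan d r ≤ 1
  exc : ∀ j : Fin D.rank, j ≠ d → ∃ w, OverJ d w ∧ D.cartan d (act D w (D.simple j)) ≠ 0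

section Roots

variable {D : ChevalleyDatum} {len : ℕ → ℕ} {d : Fin D.rank}

theorem Conv.uclosed (hR : RootTable D len) {T : Set ℕ} (h : Conv D len T) :
    UClosed D len (htHom D) T := by
  refine hR.posSet_closed.subset_closed h.1 fun r hr s hs hne c hc => ?_
  obtain ⟨hlt, hi, hj, hv⟩ := hR.commTerms_vec r (h.1 r hr).1 s (h.1 s hs).1 hne
    (hR.posSet_closed.ne_neg hR (h.1 r hr) (h.1 s hs)) c hc
  exact h.2 r hr s hs _ hlt _ _ hi hj hv

theorem coef_nonneg (hR : RootTable D len) {r : ℕ} (hr : D.IsPosRoot r) (i : Fin D.rank) :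
    0 ≤ vec D len r i :=
  (hR.isPosRoot_iff r hr.1).1 hr i

theorem pos_of_coef (hR : RootTable D len) {r : ℕ} (hr : r < D.nroots) {i : Fin D.rank}
    (h : 0 < vec D len r i) : D.IsPosRoot r := by
  rcases hR.sign r hr with hp | hn
  · exact hp
  · have := (hR.isNegRoot_iff r hr).1 hn i
    omega

theorem vec_combine {T : ℕ → Fin D.rank → ℤ} {r s u : ℕ} {a b : ℤ} (h : T u = a • T r + b • T s)
    (φ : (Fin D.rank → ℤ) →+ ℤ) : φ (T u) = a * φ (T r) + b * φ (T s) := by
  rw [h, map_add, map_zsmul, map_zsmul, smul_eq_mul, smul_eq_mul]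

theorem coef_combine {r s u : ℕ} {a b : ℤ} (i : Fin D.rank)
    (h : vec D len u = a • vec D len r + b • vec D len s) :
    vec D len u i = a * vec D len r i + b * vec D len s i := by
  rw [h]
  simp

theorem conv_lvlC (hR : RootTable D len) {k : ℤ} (hk : 0 ≤ k) : Conv D len (lvlC D len d k) := by
  refine ⟨fun r h => h.1, fun r hr s hs u hu a b ha hb hv => ?_⟩
  have ha' : (1 : ℤ) ≤ a := by exact_mod_cast ha
  have hb' : (0 : ℤ) < b := by exact_mod_cast hb
  have h1 := coef_combine d hv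
  have h2 := coef_nonneg hR hs.1 d
  refine ⟨?_, by have := hr.2; nlinarith⟩
  have h3 := vec_combine (T := vec D len) hv (htHom D)
  have h4 := (hR.pos_iff_ht hr.1.1).1 hr.1
  have h5 := (hR.pos_iff_ht hs.1.1).1 hs.1
  refine (hR.pos_iff_ht hu).2 ?_
  unfold ht at h4 h5 ⊢
  rw [h3]
  positivity

theorem conv_posSet (hR : RootTable D len) : Conv D len (posSet D) := by
  refine ⟨fun r h => h, fun r hr s hs u hu a b ha hb hv => ?_⟩
  have ha' : (0 : ℤ) < a := by exact_mod_cast ha
  have hb' : (0 : ℤ) < b := by exact_mod_cast hb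
  have h3 := vec_combine (T := vec D len) hv (htHom D)
  have h4 := (hR.pos_iff_ht hr.1).1 hr
  have h5 := (hR.pos_iff_ht hs.1).1 hs
  refine (hR.pos_iff_ht hu).2 ?_
  unfold ht at h4 h5 ⊢
  rw [h3]
  positivity

theorem conv_compl (hR : RootTable D len) (i : Fin D.rank) :
    Conv D len (posSet D \ {D.simple i}) := by
  refine ⟨fun r h => h.1, fun r hr s hs u hu a b ha hb hv => ?_⟩
  refine ⟨(conv_posSet hR).2 r hr.1 s hs.1 u hu a b ha hb hv, fun e => ?_⟩
  have h := vec_combine (T := vec D len) hv (Sys.outHom D i)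
  rw [(e : u = D.simple i), Sys.outHom_simple hR i] at h
  have h1 := Sys.outHom_pos hR i hr.1 hr.2
  have h2 := Sys.outHom_pos hR i hs.1 hs.2
  have ha' : (0 : ℤ) < a := by exact_mod_cast ha
  have hb' : (0 : ℤ) < b := by exact_mod_cast hb
  nlinarith

theorem Conv.inter {A B : Set ℕ} (hA : Conv D len A) (hB : Conv D len B) : Conv D len (A ∩ B) :=
  ⟨fun r h => hA.1 r h.1, fun r hr s hs u hu a b ha hb hv =>
    ⟨hA.2 r hr.1 s hs.1 u hu a b ha hb hv, hB.2 r hr.2 s hs.2 u hu a b ha hb hv⟩⟩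

theorem Conv.pull (hR : RootTable D len) {A B : Set ℕ} (hB : Conv D len B) (hA : Conv D len A)
    (w : List (Fin D.rank)) : Conv D len {s | s ∈ B ∧ act D w s ∈ A} :=
  ⟨fun r h => hB.1 r h.1, fun r hr s hs u hu a b ha hb hv =>
    ⟨hB.2 r hr.1 s hs.1 u hu a b ha hb hv, hA.2 _ hr.2 _ hs.2 _ (hR.act_lt w hu) a b ha hb
      (hR.act_lin w (hB.1 r hr.1).1 (hB.1 s hs.1).1 hu hv)⟩⟩

theorem coef_reflect (hR : RootTable D len) {i : Fin D.rank} (hi : i ≠ d) {s : ℕ} (hs : s < D.nroots) :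
    vec D len (D.reflectRoot i s) d = vec D len s d := by
  rw [hR.vec_reflect i i.2 s hs, hR.vec_simple i]
  simp [Pi.single_eq_of_ne (Ne.symm hi)]

theorem coef_act (hR : RootTable D len) {w : List (Fin D.rank)} (hw : OverJ d w) {s : ℕ}
    (hs : s < D.nroots) : vec D len (act D w s) d = vec D len s d := by
  induction w with
  | nil => rfl
  | cons i w ih =>
    rw [act_cons, coef_reflect hR (hw i List.mem_cons_self) (hR.act_lt w hs)]
    exact ih fun j hj => hw j (List.mem_cons_of_mem _ hj)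

theorem coef_simple_self (hR : RootTable D len) (C : CoreCert D len d) :
    vec D len (D.simple d) d = 1 := by
  rw [hR.vec_simple d]
  simp [C.len_d]

theorem coef_reflect_self (hR : RootTable D len) (C : CoreCert D len d) {s : ℕ} (hs : s < D.nroots) :
    vec D len (D.reflectRoot d s) d = vec D len s d - D.cartan d s := by
  rw [hR.vec_reflect d d.2 s hs, Pi.sub_apply, Pi.smul_apply, coef_simple_self hR C]
  simp

end Roots

variable {D : ChevalleyDatum} {F : Type*} [Field F] {G : Type*} [Group G] (S : Sys D F G)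
  {len : ℕ → ℕ} {d : Fin D.rank}

/-- A group of this kind over the field of two elements. -/
structure Setting (len : ℕ → ℕ) : Prop where
  hS : Rules D F
  hR : RootTable D len
  hF : ∀ c : F, c ≠ 0 → c = 1
  hG : S.Gbar = ⊤

variable {S}

theorem Setting.Bbar_eq (E : Setting S len) : S.Bbar = S.Ubar := by
  have h : S.Hbar = ⊥ := by
    rw [Sys.Hbar, Subgroup.closure_eq_bot_iff]
    rintro _ ⟨i, c, hc, rfl⟩
    rw [Set.mem_singleton_iff, E.hF c hc, S.hEl_one E.hR (E.hR.simple_lt i i.2)]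
  rw [Sys.Bbar, h, sup_bot_eq]

theorem Setting.Hbar_eq (E : Setting S len) : S.Hbar = ⊥ := by
  rw [Sys.Hbar, Subgroup.closure_eq_bot_iff]
  rintro _ ⟨i, c, hc, rfl⟩
  rw [Set.mem_singleton_iff, E.hF c hc, S.hEl_one E.hR (E.hR.simple_lt i i.2)]

theorem Setting.nI_sq (E : Setting S len) (i : Fin D.rank) : S.nI i * S.nI i = 1 := by
  have := S.nI_sq_mem E.hR i
  rwa [E.Hbar_eq, Subgroup.mem_bot] at this

theorem Setting.nI_inv (E : Setting S len) (i : Fin D.rank) : (S.nI i)⁻¹ = S.nI i :=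
  inv_eq_of_mul_eq_one_right (E.nI_sq i)

theorem Setting.nW_inv (E : Setting S len) (w : List (Fin D.rank)) :
    (S.nW w)⁻¹ = S.nW w.reverse := by
  have := S.nW_reverse_mem E.hS E.hR w
  rw [E.Hbar_eq, Subgroup.mem_bot] at this
  exact inv_eq_of_mul_eq_one_right this

theorem Setting.nI_mem (i : Fin D.rank) (hi : i ≠ d) : S.nI i ∈ S.PJ (Jd d) :=
  Subgroup.mem_sup_right (Subgroup.subset_closure ⟨i, fun e => hi (Fin.ext e), rfl⟩)

theorem Setting.nW_mem {w : List (Fin D.rank)} (hw : OverJ d w) : S.nW w ∈ S.PJ (Jd d) := by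
  refine list_prod_mem fun g hg => ?_
  obtain ⟨i, hi, rfl⟩ := List.mem_map.1 hg
  exact Setting.nI_mem i (hw i hi)

theorem map_conj_le_self {M X : Subgroup G} (hn : M ≤ Subgroup.normalizer (X : Set G)) {m : G}
    (hm : m ∈ M) : X.map (MulAut.conj m).toMonoidHom ≤ X := by
  rintro _ ⟨x, hx, rfl⟩
  simpa using (Subgroup.mem_normalizer_iff.1 (hn hm) x).1 hx

theorem Setting.map_US_le (E : Setting S len) (w : List (Fin D.rank)) {T : Set ℕ}
    (hT : ∀ r ∈ T, r < D.nroots) :
    (S.US T).map (MulAut.conj (S.nW w)).toMonoidHom ≤ S.US (act D w '' T) := by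
  obtain ⟨a, -, hwa⟩ := S.conjP_nW E.hS E.hR w
  rw [Sys.US, MonoidHom.map_closure, Subgroup.closure_le]
  rintro _ ⟨_, ⟨r, hr, t, rfl⟩, rfl⟩
  rw [MulEquiv.coe_toMonoidHom, MulAut.conj_apply, hwa r (hT r hr)]
  exact S.x_mem_US (Set.mem_image_of_mem _ hr) _

/-- Roots may be pulled back along a word. -/
theorem Setting.le_US_image (E : Setting S len) {X : Subgroup G} (w : List (Fin D.rank)) {T : Set ℕ}
    (hT : ∀ r ∈ T, r < D.nroots)
    (hX : X.map (MulAut.conj (S.nW w)).toMonoidHom ≤ S.US T) :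
    X ≤ S.US (act D w.reverse '' T) := by
  intro u hu
  have h := E.map_US_le w.reverse hT ⟨_, hX ⟨u, hu, rfl⟩, rfl⟩
  simpa [← E.nW_inv, mul_assoc] using h

theorem Setting.le_US_inter (E : Setting S len) {X : Subgroup G} {A B : Set ℕ} (hA : Conv D len A)
    (hB : Conv D len B) (h1 : X ≤ S.US A) (h2 : X ≤ S.US B) : X ≤ S.US (A ∩ B) := by
  rw [← S.US_inf E.hR E.hR.posSet_closed (hA.uclosed E.hR) (hB.uclosed E.hR) hA.1 hB.1]
  exact le_inf h1 h2

/-- A subgroup of `U` lies in `U_A` when every other positive root is avoided by some closed set. -/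
theorem Setting.le_US_of_forall (E : Setting S len) {X : Subgroup G} (hX : X ≤ S.Ubar) {A : Set ℕ}
    (hA : ∀ r, D.IsPosRoot r → r ∉ A → ∃ B, Conv D len B ∧ X ≤ S.US B ∧ r ∉ B) : X ≤ S.US A := by
  intro u hu
  obtain ⟨L, hL⟩ := E.hR.posSet_closed.exists_enum
  obtain ⟨t, rfl⟩ := S.exists_coef E.hR E.hR.posSet_closed hL (hX hu)
  refine S.P_mem (fun r hr => ((hL.2 r).1 hr).1) fun r hr h0 => ?_
  by_contra hrA
  obtain ⟨B, hB, hXB, hrB⟩ := hA r ((hL.2 r).1 hr) hrA
  exact hrB (S.coef_supp E.hR E.hR.posSet_closed hL (hB.uclosed E.hR) hB.1 (hXB hu) r ((hL.2 r).1 hr) h0)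

/-- Cutting off a fundamental root. -/
theorem Setting.le_compl_simple (E : Setting S len) {X Z : Subgroup G} (i : Fin D.rank)
    (hU : X ≤ S.Ubar) (hUZ : S.Ubar ≤ Z) (hx : S.x (D.neg (D.simple i)) 1 ∉ Z)
    (hc : X.map (MulAut.conj (S.nI i)).toMonoidHom ≤ Z) :
    X ≤ S.US (posSet D \ {D.simple i}) := by
  intro u hu
  obtain ⟨a, ha, t, rfl⟩ := S.x_simple_split E.hR i (hU hu)
  have hp := E.hR.simple_lt i i.2
  by_cases ht0 : t = 0
  · rw [ht0, S.x_zero hp, mul_one]
    exact ha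
  exfalso
  apply hx
  obtain ⟨c, hc', hic⟩ := S.conjP_nI E.hS E.hR i
  have e := hic (D.simple i) hp t
  rw [act_singleton, E.hR.reflect_simple i.2,
    E.hF _ (mul_ne_zero (right_ne_zero_of_mul_eq_one (hc' _ hp)) ht0)] at e
  have h1 : S.nI i * a * (S.nI i)⁻¹ ∈ Z :=
    hUZ (S.US_mono Set.sdiff_subset (S.nI_conj_Up E.hS E.hR i ha))
  have h2 : S.nI i * (a * S.x (D.simple i) t) * (S.nI i)⁻¹ ∈ Z := by
    simpa using hc ⟨_, hu, rfl⟩
  have h3 := mul_mem (inv_mem h1) h2
  rw [← e]
  convert h3 using 1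
  group

theorem Setting.x_neg_not_mem_Ubar (E : Setting S len) (i : Fin D.rank) :
    S.x (D.neg (D.simple i)) 1 ∉ S.Ubar := fun h =>
  E.hR.not_pos_and_neg (S.root_mem_of_mem_US E.hR E.hR.posSet_closed (fun _ hr => hr)
    (E.hR.neg_lt _ (E.hR.simple_lt i i.2)) one_ne_zero E.hS h) (E.hR.neg_simple_isNeg i)

theorem Setting.Ubar_le_PJ (J : Set ℕ) : S.Ubar ≤ S.PJ J := le_sup_of_le_left S.Ubar_le_Bbar

/-- The double cosets met by `p n_u`, `p` in the parabolic subgroup, do not move the coefficient at `d`. -/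
theorem Setting.exists_cell (E : Setting S len) {p : G} (hp : p ∈ S.PJ (Jd d)) :
    ∀ u : List (Fin D.rank), ∃ b1 ∈ S.Bbar, ∃ b2 ∈ S.Bbar, ∃ u' : List (Fin D.rank),
      p * S.nW u = b1 * S.nW u' * b2 ∧
        ∀ r < D.nroots, vec D len (act D u' r) d = vec D len (act D u r) d := by
  have key : ∀ g ∈ (S.Bbar : Set G) ∪ {g | ∃ i : Fin D.rank, (i : ℕ) ∈ Jd d ∧ g = S.nI i}, ∀ y : G,
      (∀ u : List (Fin D.rank), ∃ b1 ∈ S.Bbar, ∃ b2 ∈ S.Bbar, ∃ u' : List (Fin D.rank),
        y * S.nW u = b1 * S.nW u' * b2 ∧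
          ∀ r < D.nroots, vec D len (act D u' r) d = vec D len (act D u r) d) →
      ∀ u : List (Fin D.rank), ∃ b1 ∈ S.Bbar, ∃ b2 ∈ S.Bbar, ∃ u' : List (Fin D.rank),
        g * y * S.nW u = b1 * S.nW u' * b2 ∧
          ∀ r < D.nroots, vec D len (act D u' r) d = vec D len (act D u r) d := by
    intro g hg y hy u
    obtain ⟨b1, hb1, b2, hb2, u', e, hu'⟩ := hy u
    rcases hg with hg | ⟨i, hi, rfl⟩
    · exact ⟨g * b1, mul_mem hg hb1, b2, hb2, u', by rw [mul_assoc g, e]; simp [mul_assoc], hu'⟩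
    obtain ⟨c1, hc1, c2, hc2, e' | e'⟩ := S.mul_cases E.hS E.hR i hb1 (S.nW_mem_Nbar u')
    · refine ⟨c1, hc1, c2 * b2, mul_mem hc2 hb2, i :: u', ?_, fun r hr => ?_⟩
      · rw [mul_assoc (S.nI i), e, ← mul_assoc, ← mul_assoc, e', Sys.nW_cons]
        simp [mul_assoc]
      · rw [act_cons, coef_reflect E.hR (fun h => hi (congrArg Fin.val h)) (E.hR.act_lt u' hr), hu' r hr]
    · refine ⟨c1, hc1, c2 * b2, mul_mem hc2 hb2, u', ?_, hu'⟩
      rw [mul_assoc (S.nI i), e, ← mul_assoc, ← mul_assoc, e']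
      simp [mul_assoc]
  rw [Sys.PJ, ← Subgroup.closure_eq S.Bbar, ← Subgroup.closure_union] at hp
  refine Subgroup.closure_induction_left (p := fun p _ => ∀ u : List (Fin D.rank), ∃ b1 ∈ S.Bbar,
    ∃ b2 ∈ S.Bbar, ∃ u' : List (Fin D.rank), p * S.nW u = b1 * S.nW u' * b2 ∧
        ∀ r < D.nroots, vec D len (act D u' r) d = vec D len (act D u r) d) ?_ ?_ ?_ hp
  · exact fun u => ⟨1, one_mem _, 1, one_mem _, u, by simp, fun _ _ => rfl⟩
  · exact fun g hg y _ hy => key g hg y hy
  · intro g hg y _ hy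
    refine key g⁻¹ ?_ y hy
    rcases hg with hg | ⟨i, hi, rfl⟩
    · exact Or.inl (inv_mem hg)
    · exact Or.inr ⟨i, hi, E.nI_inv i⟩

theorem Setting.nI_not_mem (E : Setting S len) (C : CoreCert D len d) : S.nI d ∉ S.PJ (Jd d) := by
  intro h
  obtain ⟨b1, hb1, b2, hb2, u', e, hu'⟩ := E.exists_cell h []
  have e' : b1⁻¹ * S.nW [d] = S.nW u' * b2 := by
    rw [Sys.nW_nil, mul_one] at e
    rw [Sys.nW_singleton, e]
    simp [mul_assoc]
  have hd := E.hR.simple_lt d d.2
  have hact := S.act_eq_of_bruhat E.hS E.hR (inv_mem hb1) hb2 (congrArg S.θ e') _ hd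
  have h2 := hu' _ hd
  rw [← hact, act_singleton, act_nil, coef_reflect_self E.hR C hd, coef_simple_self E.hR C,
    E.hR.cartan_self d d.2] at h2
  omega

theorem Setting.x_neg_not_mem (E : Setting S len) (C : CoreCert D len d) :
    S.x (D.neg (D.simple d)) 1 ∉ S.PJ (Jd d) := by
  intro h
  apply E.nI_not_mem C
  have hx : S.x (D.simple d) 1 ∈ S.PJ (Jd d) :=
    Setting.Ubar_le_PJ _ (S.x_mem_US (E.hR.simple_pos d) _)
  rw [Sys.nI, Sys.nEl, E.hF (-(1 : F)⁻¹) (by simp)]
  exact mul_mem (mul_mem hx h) hx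

theorem Setting.le_Ubar (E : Setting S len) (C : CoreCert D len d) {X : Subgroup G}
    (hXM : X ≤ S.PJ (Jd d)) (hn : S.PJ (Jd d) ≤ Subgroup.normalizer (X : Set G))
    (hc : X.map (MulAut.conj (S.nI d)).toMonoidHom ≤ S.PJ (Jd d)) : X ≤ S.Ubar := by
  have hB : S.Bbar ≤ S.PJ (Jd d) := le_sup_left
  have hempty : ∀ j : Fin D.rank, S.nI j ∉ X ⊔ S.Bbar := by
    intro j hj
    have hmul := Subgroup.coe_mul_of_right_le_normalizer_left X S.Bbar (hB.trans hn)
    have hj' : S.nI j ∈ ((X ⊔ S.Bbar : Subgroup G) : Set G) := hj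
    rw [hmul] at hj'
    obtain ⟨a, ha, b, hb, e⟩ := Set.mem_mul.1 hj'
    have hjd : j ≠ d := by
      intro h
      apply E.nI_not_mem C
      rw [← h, ← e]
      exact mul_mem (h ▸ hXM ha) (h ▸ hB hb)
    obtain ⟨v, hv, hcart⟩ := C.exc j hjd
    have hp := hc ⟨_, map_conj_le_self hn (Setting.nW_mem hv) ⟨a, ha, rfl⟩, rfl⟩
    simp only [MulEquiv.coe_toMonoidHom, MulAut.conj_apply] at hp
    obtain ⟨b1, hb1, b2, hb2, u', e', hu'⟩ := E.exists_cell hp (d :: v)
    have e2 : b1⁻¹ * S.nW ((d :: v) ++ [j]) = S.nW u' * (b2 * b) := by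
      rw [eq_comm, eq_inv_mul_iff_mul_eq, ← mul_assoc, ← mul_assoc, ← e', Sys.nW_append,
        Sys.nW_singleton, ← e, Sys.nW_cons]
      group
    have hj0 := E.hR.simple_lt j j.2
    have hact := S.act_eq_of_bruhat E.hS E.hR (inv_mem hb1) (mul_mem hb2 hb) (congrArg S.θ e2) _ hj0
    have h2 := hu' _ hj0
    have hvlt := E.hR.act_lt v hj0
    rw [← hact, act_append, act_singleton, E.hR.reflect_simple j.2, E.hR.act_neg _ hj0,
      E.hR.vec_neg _ (E.hR.act_lt _ hj0), Pi.neg_apply, act_cons, coef_reflect_self E.hR C hvlt,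
      coef_act E.hR hv hj0, E.hR.vec_simple j, Pi.single_eq_of_ne (Ne.symm hjd)] at h2
    apply hcart
    omega
  have heq := S.eq_PJ E.hS E.hR (P := X ⊔ S.Bbar) le_sup_right (E.hG ▸ le_top)
  rw [← E.Bbar_eq]
  refine le_trans le_sup_left (heq.trans_le ?_)
  refine sup_le le_rfl ?_
  rw [Subgroup.closure_le]
  rintro _ ⟨i, ⟨i', hii', hi'⟩, rfl⟩
  exact absurd hi' (hempty i')

theorem Setting.le_lvl_one (E : Setting S len) (C : CoreCert D len d) {X : Subgroup G}
    (hU : X ≤ S.Ubar) (hn : S.PJ (Jd d) ≤ Subgroup.normalizer (X : Set G)) :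
    X ≤ S.US (lvlC D len d 1) := by
  have hR := E.hR
  have key : ∀ n : ℕ,
      X ≤ S.US {r | D.IsPosRoot r ∧ (1 ≤ vec D len r d ∨ (n : ℤ) < ht D len r)} := by
    intro n
    induction n with
    | zero =>
      refine hU.trans (S.US_mono fun r hr => ⟨hr, Or.inr ?_⟩)
      simpa using (hR.pos_iff_ht hr.1).1 hr
    | succ n ih =>
      set A : Set ℕ := {r | D.IsPosRoot r ∧ (1 ≤ vec D len r d ∨ (n : ℤ) < ht D len r)} with hAdef
      have hA : Conv D len A := by
        refine ⟨fun r h => h.1, fun r hr s hs u hu a b ha hb hv => ?_⟩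
        have ha' : (1 : ℤ) ≤ a := by exact_mod_cast ha
        have hb' : (1 : ℤ) ≤ b := by exact_mod_cast hb
        refine ⟨(conv_posSet hR).2 r hr.1 s hs.1 u hu a b ha hb hv, ?_⟩
        have h1 := coef_combine d hv
        have h2 := vec_combine (T := vec D len) hv (htHom D)
        have h3 := coef_nonneg hR hr.1 d
        have h4 := coef_nonneg hR hs.1 d
        have h5 := (hR.pos_iff_ht hs.1.1).1 hs.1
        rcases hr.2 with h | h
        · left; nlinarith
        · right
          unfold ht at h h5 ⊢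
          nlinarith
      refine E.le_US_of_forall hU fun r hr hnot => ?_
      by_cases hrA : r ∈ A
      swap
      · exact ⟨A, hA, ih, hrA⟩
      have h0 : ¬ 1 ≤ vec D len r d := fun h => hnot ⟨hr, Or.inl h⟩
      have h1 : ¬ ((n + 1 : ℕ) : ℤ) < ht D len r := fun h => hnot ⟨hr, Or.inr h⟩
      push_cast at h1
      obtain ⟨i, hi, hci⟩ := hR.descent r hr.1 hr
      have hrd : r ≠ D.simple d := fun h => h0 (h ▸ (coef_simple_self hR C).ge)
      have hid : (⟨i, hi⟩ : Fin D.rank) ≠ d := by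
        intro h
        have hpos := hR.reflect_pos d hr hrd
        have h2 := coef_nonneg hR hpos d
        rw [coef_reflect_self hR C hr.1] at h2
        have : (d : ℕ) = i := (congrArg Fin.val h).symm
        rw [this] at h2
        omega
      set i' : Fin D.rank := ⟨i, hi⟩ with hi'def
      have hstab : X.map (MulAut.conj (S.nI i')).toMonoidHom ≤ X :=
        map_conj_le_self hn (Setting.nI_mem i' hid)
      have hcompl : X ≤ S.US (posSet D \ {D.simple i'}) :=
        E.le_compl_simple i' hU le_rfl (E.x_neg_not_mem_Ubar i') (hstab.trans hU)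
      by_cases hri : r = D.simple i'
      · exact ⟨_, conv_compl hR i', hcompl, fun h => h.2 hri⟩
      refine ⟨{s | s ∈ posSet D \ {D.simple i'} ∧ act D [i'] s ∈ A}, (conv_compl hR i').pull hR hA [i'],
        ?_, fun h => ?_⟩
      · refine (E.le_US_image [i'] (T := A ∩ (posSet D \ {D.simple i'})) (fun s hs => hs.1.1.1) ?_).trans
          (S.US_mono ?_)
        · rw [Sys.nW_singleton]
          exact hstab.trans (E.le_US_inter hA (conv_compl hR i') ih hcompl)
        · rintro _ ⟨s, ⟨hsA, hs, hne⟩, rfl⟩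
          simp only [List.reverse_singleton, act_singleton]
          have hlt : s < D.nroots := hs.1
          refine ⟨⟨hR.reflect_pos i' hs hne, fun e => ?_⟩, ?_⟩
          · have e2 : s = D.neg (D.simple i') := by
              rw [← hR.reflect_simple i'.2, ← (e : D.reflectRoot i' s = D.simple i'),
                hR.reflect_reflect i'.2 hlt]
            exact hR.not_pos_and_neg hs (e2 ▸ hR.neg_simple_isNeg i')
          · rw [hR.reflect_reflect i'.2 hlt]
            exact hsA
      · have h2 := h.2.2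
        rw [act_singleton] at h2
        have h3 := hR.ht_reflect_lt i'.2 hr.1 hci
        rw [coef_reflect hR hid hr.1] at h2
        omega
  obtain ⟨N, hN⟩ := UClosed.exists_bound (len := len) (htHom D) D.nroots
  refine (key N).trans (S.US_mono fun r hr => ⟨hr.1, hr.2.resolve_right ?_⟩)
  have := hN r hr.1.1
  unfold ht
  omega

theorem Setting.le_level_succ (E : Setting S len) {X : Subgroup G} {T : Set ℕ}
    (hn : S.PJ (Jd d) ≤ Subgroup.normalizer (X : Set G)) {k : ℤ} (hk : 1 ≤ k)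
    (hX : X ≤ S.US (lvlC D len d k)) (hT : Conv D len T) (hTk : T ⊆ lvlC D len d 1)
    (hXT : X ≤ S.US T)
    (hcert : ∀ r, D.IsPosRoot r → vec D len r d = k → ∃ w, OverJ d w ∧ act D w r ∉ T) :
    X ≤ S.US (lvlC D len d (k + 1)) := by
  refine E.le_US_of_forall (hX.trans (S.US_mono fun r hr => hr.1)) fun r hr hnot => ?_
  by_cases hrk : r ∈ lvlC D len d k
  swap
  · exact ⟨_, conv_lvlC E.hR (by omega), hX, hrk⟩
  have hreq : vec D len r d = k := by
    by_contra h
    exact hnot ⟨hr, by have := hrk.2; omega⟩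
  obtain ⟨w, hw, hwr⟩ := hcert r hr hreq
  refine ⟨{s | s ∈ lvlC D len d 1 ∧ act D w s ∈ T}, (conv_lvlC E.hR zero_le_one).pull E.hR hT w,
    (E.le_US_image w (fun s hs => (hT.1 s hs).1)
      ((map_conj_le_self hn (Setting.nW_mem hw)).trans hXT)).trans (S.US_mono ?_), fun h => hwr h.2⟩
  rintro _ ⟨s, hs, rfl⟩
  have hslt : s < D.nroots := (hT.1 s hs).1
  have hc : vec D len (act D w.reverse s) d = vec D len s d :=
    coef_act E.hR (fun i hi => hw i (List.mem_reverse.1 hi)) hslt
  have h1 := (hTk hs).2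
  refine ⟨⟨pos_of_coef E.hR (E.hR.act_lt _ hslt) (i := d) (by omega), by omega⟩, ?_⟩
  rw [E.hR.act_act_reverse w hslt]
  exact hs

theorem Setting.map_lvl_le (E : Setting S len) (C : CoreCert D len d) {k : ℤ} (hk : 1 ≤ k) :
    (S.US (lvlC D len d (k + 1))).map (MulAut.conj (S.nI d)).toMonoidHom ≤ S.US (lvlC D len d k) := by
  rw [← Sys.nW_singleton]
  refine (E.map_US_le [d] (T := lvlC D len d (k + 1)) fun r hr => hr.1.1).trans (S.US_mono ?_)
  rintro _ ⟨r, hr, rfl⟩
  have hne : r ≠ D.simple d := fun h => by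
    have := hr.2
    rw [h, coef_simple_self E.hR C] at this
    omega
  rw [act_singleton]
  refine ⟨E.hR.reflect_pos d hr.1 hne, ?_⟩
  rw [coef_reflect_self E.hR C hr.1.1]
  have := C.small r hr.1 hne
  have := hr.2
  omega

theorem Setting.le_normalizer_lvl (E : Setting S len) {k : ℤ} (hk : 1 ≤ k) :
    S.PJ (Jd d) ≤ Subgroup.normalizer (S.US (lvlC D len d k) : Set G) := by
  have hR := E.hR
  rw [Sys.PJ, E.Bbar_eq]
  refine sup_le (S.mem_normalizer_of_ideal hR hR.posSet_closed (fun r hr => hr.1)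
    fun r hr s hs hne c hc => ?_) ?_
  · obtain ⟨hlt, hi, hj, hv⟩ := hR.commTerms_vec r hr.1 s hs.1.1 hne
      (hR.posSet_closed.ne_neg hR hr hs.1) c hc
    refine ⟨hR.posSet_closed.closed r hr s hs.1 hne c hc, ?_⟩
    have h1 := coef_combine d hv
    have h2 := coef_nonneg hR hr d
    have h3 := hs.2
    have hi' : (1 : ℤ) ≤ (c.2.2.1 : ℤ) := by exact_mod_cast hi
    have hj' : (1 : ℤ) ≤ (c.2.2.2 : ℤ) := by exact_mod_cast hj
    nlinarith
  · rw [Subgroup.closure_le]
    rintro _ ⟨i, hi, rfl⟩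
    have hid : i ≠ d := fun h => hi (congrArg Fin.val h)
    obtain ⟨a, -, hia⟩ := S.conjP_nI E.hS hR i
    have h : ∀ r ∈ lvlC D len d k, ∀ t : F, S.nI i * S.x r t * (S.nI i)⁻¹ ∈ S.US (lvlC D len d k) := by
      intro r hr t
      rw [hia r hr.1.1, act_singleton]
      have hlt := hR.reflect_lt i i.2 r hr.1.1
      have hc := coef_reflect hR hid hr.1.1
      refine S.x_mem_US (T := lvlC D len d k) ⟨pos_of_coef hR hlt (i := d) ?_, ?_⟩ _
      · have := hr.2; omega
      · have := hr.2; omega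
    refine S.mem_normalizer_US h fun r hr t => ?_
    have := h r hr t
    rw [E.nI_inv] at this ⊢
    exact this

/-- The iterated cores are the root subgroups of the levels. -/
theorem Setting.seqA_eq (E : Setting S len) (C : CoreCert D len d) (n : ℕ) :
    seqA (S.PJ (Jd d)) (S.nI d) (n + 1) = S.US (lvlC D len d ((n : ℤ) + 2)) := by
  set M := S.PJ (Jd d) with hM
  have hsq := E.nI_sq d
  have hnorm := fun m => le_normalizer_seqA M (S.nI d) m
  have hsucc := fun m => seqA_succ_le M (S.nI d) m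
  have upper : ∀ m : ℕ, seqA M (S.nI d) (m + 1) ≤ S.US (lvlC D len d ((m : ℤ) + 2)) := by
    intro m
    induction m with
    | zero =>
      have hXM := seqA_le M (S.nI d) 1
      have hc : (seqA M (S.nI d) 1).map (MulAut.conj (S.nI d)).toMonoidHom ≤ M := by
        refine (Subgroup.map_mono (hsucc 0).2).trans (le_of_eq ?_)
        exact map_map_conj hsq _
      have hU := E.le_Ubar C hXM (hnorm 1) hc
      have h1 := E.le_lvl_one C hU (hnorm 1)
      have h2 := E.le_compl_simple d hU (Setting.Ubar_le_PJ _) (E.x_neg_not_mem C) hc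
      have hT := E.le_US_inter (conv_lvlC E.hR zero_le_one) (conv_compl E.hR d) h1 h2
      have h3 := E.le_level_succ (hnorm 1) le_rfl h1
        ((conv_lvlC E.hR zero_le_one).inter (conv_compl E.hR d)) Set.inter_subset_left hT
        fun r hr he => by
          obtain ⟨w, hw, e⟩ := C.one r hr he
          exact ⟨w, hw, fun h => h.2.2 e⟩
      simpa [show ((1 : ℤ) + 1) = 2 by norm_num] using h3
    | succ m ih =>
      set k : ℤ := (m : ℤ) + 2 with hk
      have hk2 : 2 ≤ k := by omega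
      have hX : seqA M (S.nI d) (m + 2) ≤ S.US (lvlC D len d k) := (hsucc (m + 1)).1.trans ih
      have hc : (seqA M (S.nI d) (m + 2)).map (MulAut.conj (S.nI d)).toMonoidHom ≤
          S.US (lvlC D len d k) := by
        refine ((Subgroup.map_mono (hsucc (m + 1)).2).trans (le_of_eq ?_)).trans ih
        exact map_map_conj hsq _
      set B0 : Set ℕ := {s | s ∈ posSet D \ {D.simple d} ∧ act D [d] s ∈ lvlC D len d k} with hB0
      have hcv : Conv D len B0 :=
        (conv_compl E.hR d).pull E.hR (conv_lvlC E.hR (by omega)) [d]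
      have hX0 : seqA M (S.nI d) (m + 2) ≤ S.US B0 := by
        refine (E.le_US_image [d] (T := lvlC D len d k) (fun r hr => hr.1.1) ?_).trans (S.US_mono ?_)
        · rwa [Sys.nW_singleton]
        · rintro _ ⟨s, hs, rfl⟩
          have hne : s ≠ D.simple d := fun h => by
            have := hs.2
            rw [h, coef_simple_self E.hR C] at this
            omega
          simp only [List.reverse_singleton, act_singleton]
          refine ⟨⟨E.hR.reflect_pos d hs.1 hne, fun e => ?_⟩, ?_⟩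
          · have e2 : s = D.neg (D.simple d) := by
              rw [← E.hR.reflect_simple d.2, ← (e : D.reflectRoot d s = D.simple d),
                E.hR.reflect_reflect d.2 hs.1.1]
            exact E.hR.not_pos_and_neg hs.1 (e2 ▸ E.hR.neg_simple_isNeg d)
          · rw [act_singleton, E.hR.reflect_reflect d.2 hs.1.1]
            exact hs
      have h3 := E.le_level_succ (hnorm (m + 2)) (by omega) hX
        ((conv_lvlC E.hR (by omega)).inter hcv) (fun s hs => ⟨hs.1.1, by have := hs.1.2; omega⟩)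
        (E.le_US_inter (conv_lvlC E.hR (by omega)) hcv hX hX0) fun r hr he => by
          obtain ⟨w, hw, hpos⟩ := C.high r hr (by omega)
          refine ⟨w, hw, fun h => ?_⟩
          have h1 := h.2.2.2
          rw [act_singleton, coef_reflect_self E.hR C (E.hR.act_lt w hr.1),
            coef_act E.hR hw hr.1, he] at h1
          omega
      have e : k + 1 = ((m + 1 : ℕ) : ℤ) + 2 := by push_cast; omega
      rwa [e] at h3
  have lower : ∀ m : ℕ, S.US (lvlC D len d ((m : ℤ) + 1)) ≤ seqA M (S.nI d) m := by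
    intro m
    induction m with
    | zero => exact (S.US_mono fun r hr => hr.1).trans (Setting.Ubar_le_PJ _)
    | succ m ih =>
      set k : ℤ := (m : ℤ) + 1 with hk
      have e : ((m + 1 : ℕ) : ℤ) + 1 = k + 1 := by push_cast; omega
      rw [e]
      have h1 : S.US (lvlC D len d (k + 1)) ≤ seqA M (S.nI d) m :=
        (S.US_mono (T := lvlC D len d (k + 1)) (T' := lvlC D len d k)
          fun r hr => ⟨hr.1, by have := hr.2; omega⟩).trans ih
      refine le_coreIn (h1.trans (seqA_le M _ m)) (le_inf h1 ?_) (E.le_normalizer_lvl (by omega))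
      have h2 := Subgroup.map_mono (f := (MulAut.conj (S.nI d)).toMonoidHom)
        ((E.map_lvl_le C (show 1 ≤ k by omega)).trans ih)
      rwa [map_map_conj hsq] at h2
  refine le_antisymm (upper n) ?_
  have := lower (n + 1)
  have e : ((n + 1 : ℕ) : ℤ) + 1 = (n : ℤ) + 2 := by push_cast; omega
  rwa [e] at this

theorem Setting.isCoatom (E : Setting S len) (C : CoreCert D len d) : IsCoatom (S.PJ (Jd d)) := by
  refine ⟨fun h => E.nI_not_mem C (h ▸ Subgroup.mem_top _), fun P hP => ?_⟩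
  have hB : S.Bbar ≤ P := le_trans le_sup_left hP.le
  have heq := S.eq_PJ E.hS E.hR (P := P) hB (E.hG ▸ le_top)
  have hd : S.nI d ∈ P := by
    by_contra hd
    refine hP.not_ge (heq.trans_le (sup_le le_sup_left ?_))
    rw [Subgroup.closure_le]
    rintro _ ⟨i, ⟨i', hii', hi'⟩, rfl⟩
    obtain rfl : i' = i := Fin.ext hii'
    exact Setting.nI_mem i' fun h => hd (h ▸ hi')
  rw [eq_top_iff, ← E.hG, S.Gbar_eq E.hR E.hS]
  refine sup_le hB (sup_le (le_trans S.Hbar_le_Bbar hB) ?_)
  rw [Subgroup.closure_le]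
  rintro _ ⟨i, rfl⟩
  by_cases hi : i = d
  · rwa [hi]
  · exact hP.le (Setting.nI_mem i hi)

theorem Setting.conj_ne (E : Setting S len) (C : CoreCert D len d) :
    S.PJ (Jd d) ≠ (S.PJ (Jd d)).map (MulAut.conj (S.nI d)).toMonoidHom := by
  intro h
  apply E.x_neg_not_mem C
  refine (Subgroup.ext_iff.1 h _).2 (Subgroup.mem_map.2 ?_)
  have hp := E.hR.simple_lt d d.2
  obtain ⟨c, hc, hdc⟩ := S.conjP_nI E.hS E.hR d
  refine ⟨S.x (D.simple d) 1, Setting.Ubar_le_PJ _ (S.x_mem_US (E.hR.simple_pos d) _), ?_⟩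
  have e := hdc (D.simple d) hp 1
  rw [act_singleton, E.hR.reflect_simple d.2,
    E.hF _ (mul_ne_zero (right_ne_zero_of_mul_eq_one (hc _ hp)) one_ne_zero)] at e
  simpa using e

end Cfsg.Agent.H66
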