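import Cfsg.Agent.Chev.Rules
import Cfsg.Agent.ChevGrp.PerfectData
import Cfsg.Agent.H66.ParabolicCores

/-!
The parabolic subgroup of `E8(2)` at the branch node: certificates, and the group with root elements
carried by the matrix group itself (owner: helper66).
-/

set_option autoImplicit false

namespace Cfsg.Agent.H66

open Cfsg.Lie Cfsg.Agent.ChevGrp Cfsg.Agent.Chev

/-- The group of a datum as a group with root elements. -/
noncomputable def groupSys {D : ChevalleyDatum} {F : Type*} [Field F] (hS : Rules D F)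
    (hx : ∀ r t, xGL D F r t ∈ D.group F) : Sys D F ↥(D.group F) where
  x r t := ⟨xGL D F r t, hx r t⟩
  θ := (D.group F).subtype
  θ_x r _ t := val_xGL hS r t
  x_add r hr t u := Subtype.ext ((glSys hS).x_add r hr t u)
  comm r hr s hs h1 h2 t u := Subtype.ext (by
    simp only [Subgroup.coe_mul, Subgroup.val_list_prod, List.map_map]
    exact (glSys hS).comm r hr s hs h1 h2 t u)

theorem xGL_mem_group {D : ChevalleyDatum} {F : Type*} [Field F] (hS : Rules D F) (r : ℕ) (t : F) :
    xGL D F r t ∈ D.group F := by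
  by_cases hr : r < D.nroots
  · rw [group_eq hS]
    exact (glSys hS).x_mem_Gbar hr t
  · have h : xGL D F r t = 1 := Units.ext (by rw [val_xGL hS]; simp [ChevalleyDatum.x, hr])
    rw [h]
    exact one_mem _

theorem groupSys_Gbar {D : ChevalleyDatum} {F : Type*} [Field F] (hS : Rules D F)
    (hx : ∀ r t, xGL D F r t ∈ D.group F) : (groupSys hS hx).Gbar = ⊤ := by
  refine Subgroup.map_injective (Subgroup.subtype_injective _) ?_
  rw [← MonoidHom.range_eq_map, Subgroup.range_subtype]
  refine Eq.trans ?_ (group_eq hS).symm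
  rw [Sys.Gbar, Sys.Gbar, MonoidHom.map_closure]
  congr 1
  ext g
  constructor
  · rintro ⟨_, ⟨r, hr, t, rfl⟩, rfl⟩
    exact ⟨r, hr, t, rfl⟩
  · rintro ⟨r, hr, t, rfl⟩
    exact ⟨_, ⟨r, hr, t, rfl⟩, rfl⟩

/-- The branch node. -/
def branch : Fin chevE8.rank := ⟨3, by decide⟩

/-- For each positive root, a word bringing it to the position needed. -/
def coreWords : List (List ℕ) :=
   [[], [], [], [], [], [], [], [], [], [],
    [], [4], [4,5], [4,5,6], [4,5,6,7], [], [2], [4,2], [4,5,2], [4,5,6,2],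
    [4,5,6,7,2], [], [1], [4,1], [4,5,1], [4,5,6,1], [4,5,6,7,1], [2,1], [4,2,1], [4,5,2,1],
    [4,5,6,2,1], [4,5,6,7,2,1], [], [], [], [], [4], [4], [4], [4,5],
    [4,5], [4,5,6], [], [], [2,0], [4,2,0], [4,5,2,0], [4,5,6,2,0], [4,5,6,7,2,0], [2,1,0],
    [4,2,1,0], [4,5,2,1,0], [4,5,6,2,1,0], [4,5,6,7,2,1,0], [], [], [], [], [4], [4],
    [4], [4,5], [4,5], [4,5,6], [2], [2], [2], [2], [4,2], [4,2],
    [4,2], [4,5,2], [4,5,2], [4,5,6,2], [], [], [], [], [], [],
    [4], [4], [4], [4,5], [1], [1], [1], [1], [1], [1],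
    [4,1], [4,1], [4,1], [4,5,1], [], [], [], [], [4], [2],
    [2], [2], [2], [4,2], [], [1], [2,0], [2,0], [2,0], [2,0],
    [4,2,0], [], [2], [1], [2,1], [], [4], [4,5], [4,5,6], [4,5,6,7]]

/-- For each other node, a word showing that it is not in the core. -/
def excWords : List (List ℕ) := [[2], [], [], [], [], [4], [4,5], [4,5,6]]

/-- The action of a word, read in the packed tables. -/
def natAct (l : List ℕ) (r : ℕ) : ℕ := l.foldr (fun i s => certE8.w i s) r

/-- The coefficient at the branch node. -/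
def coefB (r : ℕ) : ℤ := (chevE8.coroot.getD r #[]).getD 3 0

theorem len_one : ∀ r < 240, lenCertE8.len r = 1 := by decide +kernel

theorem rootTableE8 : RootTable chevE8 lenCertE8.len := validE8.rootTable lenValidE8

theorem pos_range {r : ℕ} (h : chevE8.IsPosRoot r) : r < 240 ∧ 120 ≤ r := by
  have := validE8.isPosRoot_iff.1 h
  exact ⟨this.2, this.1⟩

theorem vec_branch {r : ℕ} (hr : r < 240) : vec chevE8 lenCertE8.len r branch = coefB r := by
  simp [vec, len_one r hr, branch, coefB]

theorem act_of_natAct (l : List ℕ) (hl : ∀ i ∈ l, i < 8 ∧ i ≠ 3) {r : ℕ} (hr : r < 240) :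
    ∃ w, OverJ branch w ∧ act chevE8 w r = natAct l r ∧ natAct l r < 240 := by
  induction l with
  | nil => exact ⟨[], by simp [OverJ], rfl, hr⟩
  | cons i l ih =>
    obtain ⟨w, hw, e, hlt⟩ := ih fun j hj => hl j (List.mem_cons_of_mem _ hj)
    obtain ⟨hi, hi3⟩ := hl i List.mem_cons_self
    have hi' : i < chevE8.rank := hi
    refine ⟨⟨i, hi'⟩ :: w, ?_, ?_, ?_⟩
    · intro j hj
      rcases List.mem_cons.1 hj with rfl | hj
      · exact fun h => hi3 (congrArg Fin.val h)
      · exact hw j hj
    · rw [act_cons, e]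
      exact (validE8.w_eq hi' hlt).symm
    · show certE8.w i (natAct l r) < 240
      exact validE8.w_lt hi' hlt

theorem words_ok : ∀ l ∈ coreWords ++ excWords, ∀ i ∈ l, i < 8 ∧ i ≠ 3 := by decide +kernel

theorem levels_ok : ∀ r < 240, 120 ≤ r →
    (coefB r = 1 → natAct (coreWords.getD (r - 120) []) r = 130) ∧
      (2 ≤ coefB r → 0 < certE8.cart 3 (natAct (coreWords.getD (r - 120) []) r)) ∧
      (r ≠ 130 → certE8.cart 3 r ≤ 1) := by decide +kernel

theorem exc_ok : ∀ j < 8, j ≠ 3 →
    certE8.cart 3 (natAct (excWords.getD j []) (chevE8.simple j)) ≠ 0 := by decide +kernel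

theorem top_levels : (∀ r < 240, 120 ≤ r → coefB r < 7) ∧ ∃ r < 240, 120 ≤ r ∧ 6 ≤ coefB r := by
  decide +kernel

theorem simple_branch : chevE8.simple 3 = 130 := by decide +kernel

theorem getD_mem_or {α : Type*} (L : List (List α)) (n : ℕ) : L.getD n [] ∈ L ∨ L.getD n [] = [] := by
  by_cases h : n < L.length
  · left
    rw [List.getD_eq_getElem _ _ h]
    exact List.getElem_mem h
  · right
    exact List.getD_eq_default _ _ (not_lt.1 h)

theorem coreWord_act {r : ℕ} (hr : r < 240) (n : ℕ) :
    ∃ w, OverJ branch w ∧ act chevE8 w r = natAct (coreWords.getD n []) r ∧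
      natAct (coreWords.getD n []) r < 240 := by
  refine act_of_natAct _ ?_ hr
  rcases getD_mem_or coreWords n with h | h
  · exact words_ok _ (List.mem_append_left _ h)
  · rw [h]; simp

theorem certBranch : CoreCert chevE8 lenCertE8.len branch where
  len_d := len_one _ (rootTableE8.simple_lt 3 (by decide))
  one r hr h := by
    obtain ⟨hlt, hge⟩ := pos_range hr
    rw [vec_branch hlt] at h
    obtain ⟨w, hw, e, -⟩ := coreWord_act hlt (r - 120)
    exact ⟨w, hw, by rw [e, (levels_ok r hlt hge).1 h]; exact simple_branch.symm⟩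
  high r hr h := by
    obtain ⟨hlt, hge⟩ := pos_range hr
    rw [vec_branch hlt] at h
    obtain ⟨w, hw, e, hlt'⟩ := coreWord_act hlt (r - 120)
    refine ⟨w, hw, ?_⟩
    rw [e, ← validE8.cart_eq branch.2 hlt']
    exact (levels_ok r hlt hge).2.1 h
  small r hr h := by
    obtain ⟨hlt, hge⟩ := pos_range hr
    rw [← validE8.cart_eq branch.2 hlt]
    exact (levels_ok r hlt hge).2.2 fun e => h (e.trans simple_branch.symm)
  exc j hj := by
    have hj8 : (j : ℕ) < 8 := j.2
    have hlt : chevE8.simple j < 240 := rootTableE8.simple_lt j j.2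
    obtain ⟨w, hw, e, hlt'⟩ := act_of_natAct (excWords.getD j []) (by
      rcases getD_mem_or excWords (j : ℕ) with h | h
      · exact words_ok _ (List.mem_append_right _ h)
      · rw [h]; simp) hlt
    refine ⟨w, hw, ?_⟩
    rw [e, ← validE8.cart_eq branch.2 hlt']
    exact exc_ok j hj8 fun h => hj (Fin.ext h)

end Cfsg.Agent.H66
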